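import Cfsg.Agent.Lib.Perfect.Wreath

/-!
# A perfect group with solvable maximal subgroup of large derived length
-/

set_option autoImplicit false
set_option linter.style.haveILetI false
set_option linter.unusedSectionVars false

open SemidirectProduct
open scoped commutatorElement
open Cfsg.Agent.Lib.Perfect.Wreath

namespace Cfsg.Agent.Lib.Perfect.Top

section Four

set_option maxRecDepth 100000 in
set_option maxHeartbeats 4000000 in
theorem t1 : ∀ a b : Equiv.Perm (Fin 5), a 4 = 4 → b 4 = 4 → Equiv.Perm.sign a = 1 →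
    Equiv.Perm.sign b = 1 → (a * b * a⁻¹ * b⁻¹) * (a * b * a⁻¹ * b⁻¹) = 1 := by
  decide

set_option maxRecDepth 100000 in
set_option maxHeartbeats 4000000 in
theorem t2 : ∀ a b : Equiv.Perm (Fin 5), a 4 = 4 → b 4 = 4 → Equiv.Perm.sign a = 1 →
    Equiv.Perm.sign b = 1 → a * a = 1 → b * b = 1 → a * b = b * a := by
  decide

/-- The point stabiliser in the alternating group of degree five. -/
abbrev M : Subgroup (alternatingGroup (Fin 5)) :=
  MulAction.stabilizer (alternatingGroup (Fin 5)) (4 : Fin 5)

theorem mem_M {x : alternatingGroup (Fin 5)} : x ∈ M ↔ x.1 4 = 4 := Iff.rfl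

theorem isCoatom_M : IsCoatom M := by
  have := alternatingGroup.isCoatom_stabilizer_singleton (α := Fin 5) (by simp)
    (s := {(4 : Fin 5)}) (Set.singleton_nonempty _) Set.subsingleton_singleton
  rwa [MulAction.stabilizer_singleton] at this

theorem isSolvable_M : Group.IsSolvable M := by
  refine (Group.isSolvable_def _).mpr ⟨2, ?_⟩
  have hfix : ∀ x : M, x.1.1 4 = 4 := fun x => x.2
  have hsign : ∀ x : M, Equiv.Perm.sign x.1.1 = 1 := fun x => x.1.2
  let V : Subgroup M :=
    { carrier := {c | c * c = 1}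
      one_mem' := by simp
      inv_mem' := by
        intro a ha
        have ha' : a * a = 1 := ha
        change a⁻¹ * a⁻¹ = 1
        rw [← mul_inv_rev, ha', inv_one]
      mul_mem' := by
        intro a b ha hb
        have ha' : a * a = 1 := ha
        have hb' : b * b = 1 := hb
        have hc : a * b = b * a := by
          apply Subtype.ext
          apply Subtype.ext
          apply t2 a.1.1 b.1.1 (hfix a) (hfix b) (hsign a) (hsign b)
          · exact congrArg (fun x : M => x.1.1) ha'
          · exact congrArg (fun x : M => x.1.1) hb'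
        change a * b * (a * b) = 1
        calc a * b * (a * b) = a * (b * a) * b := by group
          _ = a * (a * b) * b := by rw [hc]
          _ = (a * a) * (b * b) := by group
          _ = 1 := by rw [ha', hb', one_mul] }
  have hV : ∀ c ∈ V, c * c = 1 := fun c hc => hc
  have hcomm : ∀ a ∈ V, ∀ b ∈ V, a * b = b * a := by
    intro a ha b hb
    apply Subtype.ext
    apply Subtype.ext
    apply t2 a.1.1 b.1.1 (hfix a) (hfix b) (hsign a) (hsign b)
    · exact congrArg (fun x : M => x.1.1) (hV a ha)
    · exact congrArg (fun x : M => x.1.1) (hV b hb)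
  have h1 : derivedSeries M 1 ≤ V := by
    rw [derivedSeries_one, commutator_def, Subgroup.commutator_le]
    intro a _ b _
    change ⁅a, b⁆ * ⁅a, b⁆ = 1
    apply Subtype.ext
    apply Subtype.ext
    exact t1 a.1.1 b.1.1 (hfix a) (hfix b) (hsign a) (hsign b)
  rw [derivedSeries_succ, eq_bot_iff]
  calc ⁅derivedSeries M 1, derivedSeries M 1⁆ ≤ ⁅V, V⁆ := Subgroup.commutator_mono h1 h1
    _ ≤ ⊥ := by
      rw [Subgroup.commutator_le]
      intro a ha b hb
      rw [Subgroup.mem_bot, commutatorElement_eq_one_iff_mul_comm]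
      exact hcomm a ha b hb

end Four

variable (T : Type) [Group T]

/-- The derived subgroup of the wreath product, described by generators. -/
def D : Subgroup (Wr T 5) :=
  Subgroup.closure (Set.range (inr : alternatingGroup (Fin 5) →* Wr T 5) ∪
    {y | ∃ i j t, i ≠ j ∧ y = inl (xx i j t)})

variable {T}

theorem inr_mem_D (σ : alternatingGroup (Fin 5)) : (inr σ : Wr T 5) ∈ D T :=
  Subgroup.subset_closure (Or.inl ⟨σ, rfl⟩)

theorem inl_xx_mem_D {i j : Fin 5} (h : i ≠ j) (t : T) : (inl (xx i j t) : Wr T 5) ∈ D T :=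
  Subgroup.subset_closure (Or.inr ⟨i, j, t, h, rfl⟩)

theorem exists_aux : ∀ l j : Fin 5, l ≠ j → ∃ i k : Fin 5, i ≠ l ∧ i ≠ j ∧ i ≠ k ∧ k ≠ l ∧ k ≠ j := by
  decide

theorem D_le : D T ≤ ⁅D T, D T⁆ := by
  rw [D, Subgroup.closure_le]
  rintro y (⟨σ, rfl⟩ | ⟨l, j, t, hlj, rfl⟩)
  · have h1 : commutator (alternatingGroup (Fin 5)) ≤
        (⁅D T, D T⁆).comap (inr : alternatingGroup (Fin 5) →* Wr T 5) := by
      rw [commutator_def, Subgroup.commutator_le]
      intro a _ b _
      rw [Subgroup.mem_comap, map_commutatorElement]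
      exact Subgroup.commutator_mem_commutator (inr_mem_D a) (inr_mem_D b)
    apply h1
    rw [commutator_alternatingGroup_eq_top (by simp)]
    trivial
  · obtain ⟨i, k, hil, hij, hik, hkl, hkj⟩ := exists_aux l j hlj
    let s : Equiv.Perm (Fin 5) := Equiv.swap j l * Equiv.swap l k
    have hs : s ∈ alternatingGroup (Fin 5) := by
      rw [Equiv.Perm.mem_alternatingGroup, map_mul, Equiv.Perm.sign_swap hlj.symm,
        Equiv.Perm.sign_swap hkl.symm]
      rfl
    have hsi : s i = i := by
      change Equiv.swap j l (Equiv.swap l k i) = i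
      rw [Equiv.swap_apply_of_ne_of_ne hil hik, Equiv.swap_apply_of_ne_of_ne hij hil]
    have hsj : s j = l := by
      change Equiv.swap j l (Equiv.swap l k j) = l
      rw [Equiv.swap_apply_of_ne_of_ne hlj.symm hkj.symm, Equiv.swap_apply_left]
    have h2 := Subgroup.commutator_mem_commutator (inl_xx_mem_D hij t)
      (inr_mem_D (T := T) (⟨s, hs⟩ : alternatingGroup (Fin 5)))
    rw [comm_inl_inr, pact_xx] at h2
    change (inl (xx i j t * (xx (s i) (s j) t)⁻¹) : Wr T 5) ∈ _ at h2
    rw [hsi, hsj, xx_mul_inv hij hil hlj.symm] at h2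
    exact h2

theorem perfect_D : commutator (D T) = ⊤ := by
  rw [eq_top_iff]
  intro x _
  have h1 : (x : Wr T 5) ∈ ⁅D T, D T⁆ := D_le x.2
  rw [← Subgroup.map_subtype_commutator] at h1
  obtain ⟨y, hy, hyx⟩ := h1
  have : y = x := Subtype.ext hyx
  rwa [← this]

/-- The projection of `D T` to the alternating group. -/
def proj : D T →* alternatingGroup (Fin 5) := (rightHom : Wr T 5 →* _).comp (D T).subtype

theorem proj_surjective : Function.Surjective (proj (T := T)) := by
  intro σ
  refine ⟨⟨inr σ, inr_mem_D σ⟩, ?_⟩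
  change rightHom (inr σ : Wr T 5) = σ
  simp

/-- The maximal subgroup. -/
def H : Subgroup (D T) := M.comap proj

theorem isCoatom_H : IsCoatom (H (T := T)) :=
  Subgroup.isCoatom_comap_of_surjective proj_surjective isCoatom_M

theorem isSolvable_H [Group.IsSolvable T] : Group.IsSolvable (H (T := T)) := by
  haveI := isSolvable_M
  have hb : Group.IsSolvable (Fin 5 → T) := isSolvable_pi
  let Γ : Subgroup (Wr T 5) := M.comap (rightHom : Wr T 5 →* _)
  let f : (Fin 5 → T) →* Γ := MonoidHom.codRestrict (inl : (Fin 5 → T) →* Wr T 5) Γ (fun y => by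
    change rightHom (inl y : Wr T 5) ∈ M
    rw [rightHom_inl]
    exact M.one_mem)
  let g : Γ →* M := MonoidHom.codRestrict ((rightHom : Wr T 5 →* _).comp Γ.subtype) M (fun x => x.2)
  have hΓ : Group.IsSolvable Γ := by
    refine Group.isSolvable_of_ker_le_range f g ?_
    intro x hx
    have hx' : rightHom (x : Wr T 5) = 1 := by
      have := congrArg Subtype.val (MonoidHom.mem_ker.mp hx)
      exact this
    have hx'' : (x : Wr T 5) ∈ (inl : (Fin 5 → T) →* Wr T 5).range := by
      rw [range_inl_eq_ker_rightHom]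
      exact hx'
    obtain ⟨y, hy⟩ := hx''
    exact ⟨y, Subtype.ext hy⟩
  let j : H (T := T) →* Γ := MonoidHom.codRestrict ((D T).subtype.comp (H (T := T)).subtype) Γ
    (fun x => x.2)
  refine Group.isSolvable_of_isSolvable_injective (f := j) ?_
  intro a b hab
  have := congrArg Subtype.val hab
  exact Subtype.ext (Subtype.ext this)

theorem derived_H_ne {d : ℕ} (hT : derivedSeries T (d + 1) ≠ ⊥) :
    derivedSeries (H (T := T)) d ≠ ⊥ := by
  obtain ⟨c, hc, hc1⟩ := (Subgroup.bot_or_exists_ne_one _).resolve_left hT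
  let f : T →* Wr T 5 :=
    (inl : (Fin 5 → T) →* Wr T 5).comp (MonoidHom.mulSingle (fun _ : Fin 5 => T) 0)
  have hfinj : Function.Injective f := by
    intro a b hab
    have h1 : (Pi.mulSingle (0 : Fin 5) a : Fin 5 → T) = Pi.mulSingle 0 b := inl_injective hab
    simpa using congrFun h1 0
  let j : H (T := T) →* Wr T 5 := (D T).subtype.comp (H (T := T)).subtype
  have key := lift_derived f (fun k => (derivedSeries (H (T := T)) k).map j)
    (fun k => by
      change ⁅_, _⁆ ≤ (derivedSeries (H (T := T)) (k + 1)).map j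
      rw [derivedSeries_succ, Subgroup.map_commutator])
    (fun t s => by
      have e : f ⁅t, s⁆ = ⁅(inl (xx 0 1 t) : Wr T 5), (inl (xx 0 2 s) : Wr T 5)⁆ := by
        rw [← map_commutatorElement, comm_xx (by decide) (by decide) (by decide)]
        rfl
      have hD : f ⁅t, s⁆ ∈ D T := by
        rw [e]
        have ha := inl_xx_mem_D (T := T) (i := 0) (j := 1) (by decide) t
        have hb := inl_xx_mem_D (T := T) (i := 0) (j := 2) (by decide) s
        rw [commutatorElement_def]
        exact mul_mem (mul_mem (mul_mem ha hb) (inv_mem ha)) (inv_mem hb)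
      have hH : (⟨f ⁅t, s⁆, hD⟩ : D T) ∈ H (T := T) := by
        change rightHom (f ⁅t, s⁆) ∈ M
        change rightHom (inl _ : Wr T 5) ∈ M
        rw [rightHom_inl]
        exact M.one_mem
      exact ⟨⟨⟨f ⁅t, s⁆, hD⟩, hH⟩, by rw [derivedSeries_zero]; trivial, rfl⟩) d c hc
  intro hb
  change f c ∈ (derivedSeries (H (T := T)) d).map j at key
  rw [hb, Subgroup.map_bot, Subgroup.mem_bot] at key
  exact hc1 (hfinj (by rw [key, map_one]))

/-- The main theorem. -/
theorem main (d : ℕ) :
    ∃ (G : Type) (_ : Group G) (_ : Finite G) (H : Subgroup G), commutator G = ⊤ ∧ IsCoatom H ∧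
      Group.IsSolvable H ∧ derivedSeries H d ≠ ⊥ := by
  obtain ⟨T, gT, fT, sT, hT⟩ := exists_large (d + 1)
  haveI : Finite (Wr T 5) := Finite.of_equiv _ SemidirectProduct.equivProd.symm
  exact ⟨D T, inferInstance, inferInstance, H, perfect_D, isCoatom_H, isSolvable_H, derived_H_ne hT⟩

end Cfsg.Agent.Lib.Perfect.Top
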