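import Mathlib

/-!
# Wreath products with alternating groups and solvable groups of large derived length
-/

set_option autoImplicit false
set_option linter.style.haveILetI false
set_option linter.unusedSectionVars false

open SemidirectProduct
open scoped commutatorElement

namespace Cfsg.Agent.Lib.Perfect.Wreath

/-- Lifting lemma for derived series. -/
theorem lift_derived {T Y : Type*} [Group T] [Group Y] (f : T →* Y) (L : ℕ → Subgroup Y)
    (hL : ∀ k, ⁅L k, L k⁆ ≤ L (k + 1)) (h0 : ∀ t s : T, f ⁅t, s⁆ ∈ L 0) (k : ℕ) :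
    ∀ c ∈ derivedSeries T (k + 1), f c ∈ L k := by
  induction k with
  | zero =>
    intro c hc
    have : derivedSeries T (0 + 1) ≤ (L 0).comap f := by
      rw [zero_add, derivedSeries_one, commutator_def, Subgroup.commutator_le]
      intro g₁ _ g₂ _
      exact h0 g₁ g₂
    exact this hc
  | succ k ih =>
    intro c hc
    have : derivedSeries T (k + 1 + 1) ≤ (L (k + 1)).comap f := by
      rw [derivedSeries_succ, Subgroup.commutator_le]
      intro g₁ hg₁ g₂ hg₂
      rw [Subgroup.mem_comap, map_commutatorElement]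
      exact hL k (Subgroup.commutator_mem_commutator (ih _ hg₁) (ih _ hg₂))
    exact this hc

/-- Direct powers of solvable groups are solvable. -/
theorem isSolvable_pi {ι T : Type*} [Group T] [Group.IsSolvable T] :
    Group.IsSolvable (ι → T) := by
  obtain ⟨n, hn⟩ := (Group.isSolvable_def T).mp inferInstance
  refine (Group.isSolvable_def _).mpr ⟨n, ?_⟩
  rw [eq_bot_iff]
  intro x hx
  rw [Subgroup.mem_bot]
  funext i
  have h1 := map_derivedSeries_le_derivedSeries (Pi.evalMonoidHom (fun _ : ι => T) i) n
    (Subgroup.mem_map_of_mem _ hx)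
  rw [hn, Subgroup.mem_bot] at h1
  exact h1

variable {T : Type} [Group T] {n : ℕ}

/-- The permutation action on coordinates. -/
def pact (T : Type) [Group T] (n : ℕ) : alternatingGroup (Fin n) →* MulAut (Fin n → T) where
  toFun p := MulEquiv.arrowCongr (p.1 : Equiv.Perm (Fin n)) (MulEquiv.refl T)
  map_one' := by
    ext x i
    rfl
  map_mul' p q := by
    ext x i
    rfl

theorem pact_apply (p : alternatingGroup (Fin n)) (x : Fin n → T) (i : Fin n) :
    pact T n p x i = x ((p.1 : Equiv.Perm (Fin n)).symm i) := rfl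

theorem pact_single (p : alternatingGroup (Fin n)) (j : Fin n) (a : T) :
    pact T n p (Pi.mulSingle j a) = Pi.mulSingle (p.1 j) a := by
  funext i
  rw [pact_apply]
  by_cases h : i = p.1 j
  · subst h
    simp
  · rw [Pi.mulSingle_eq_of_ne h, Pi.mulSingle_eq_of_ne]
    intro h'
    apply h
    rw [← h']
    simp

/-- The wreath product. -/
abbrev Wr (T : Type) [Group T] (n : ℕ) := (Fin n → T) ⋊[pact T n] alternatingGroup (Fin n)

theorem comm_inl_inr (y : Fin n → T) (σ : alternatingGroup (Fin n)) :
    ⁅(inl y : Wr T n), (inr σ : Wr T n)⁆ = inl (y * (pact T n σ y)⁻¹) := by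
  have e : (inr σ : Wr T n) * inl y⁻¹ * inr σ⁻¹ = inl (pact T n σ y⁻¹) := (inl_aut σ y⁻¹).symm
  rw [commutatorElement_def, map_mul, ← map_inv (pact T n σ), ← e, map_inv, map_inv]
  group

/-- The basic elements of the augmentation subgroup. -/
def xx (i j : Fin n) (t : T) : Fin n → T := Pi.mulSingle i t * Pi.mulSingle j t⁻¹

theorem xx_apply (i j k : Fin n) (t : T) :
    xx i j t k = (Pi.mulSingle i t : Fin n → T) k * (Pi.mulSingle j t⁻¹ : Fin n → T) k := rfl

theorem pact_xx (p : alternatingGroup (Fin n)) (i j : Fin n) (t : T) :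
    pact T n p (xx i j t) = xx (p.1 i) (p.1 j) t := by
  rw [xx, map_mul, pact_single, pact_single, xx]

/-- A computation in the base group. -/
theorem xx_mul_inv {i j l : Fin n} (hij : i ≠ j) (hil : i ≠ l) (hjl : j ≠ l) (t : T) :
    xx i j t * (xx i l t)⁻¹ = xx l j t := by
  funext k
  simp only [Pi.mul_apply, Pi.inv_apply, xx_apply]
  rcases eq_or_ne k i with rfl | h1 <;> rcases eq_or_ne k j with rfl | h2 <;>
    rcases eq_or_ne k l with rfl | h3 <;> simp_all

/-- The commutator of two elements of the augmentation subgroup. -/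
theorem comm_xx {i j l : Fin n} (hij : i ≠ j) (hil : i ≠ l) (hjl : j ≠ l) (t s : T) :
    ⁅xx i j t, xx i l s⁆ = Pi.mulSingle i ⁅t, s⁆ := by
  funext k
  simp only [commutatorElement_def, Pi.mul_apply, Pi.inv_apply, xx_apply]
  rcases eq_or_ne k i with rfl | h1 <;> rcases eq_or_ne k j with rfl | h2 <;>
    rcases eq_or_ne k l with rfl | h3 <;> simp_all

/-- The wreath product with a cyclic group of order three is solvable. -/
theorem isSolvable_wr3 [Group.IsSolvable T] : Group.IsSolvable (Wr T 3) := by
  have h3 : Group.IsSolvable (alternatingGroup (Fin 3)) :=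
    Group.isSolvable_of_comm (by decide)
  have hb : Group.IsSolvable (Fin 3 → T) := isSolvable_pi
  refine Group.isSolvable_of_ker_le_range (inl : (Fin 3 → T) →* Wr T 3) (rightHom : Wr T 3 →* _) ?_
  rw [range_inl_eq_ker_rightHom]

/-- Existence of solvable groups of large derived length. -/
theorem exists_large (d : ℕ) : ∃ (T : Type) (_ : Group T) (_ : Finite T),
    Group.IsSolvable T ∧ derivedSeries T d ≠ ⊥ := by
  induction d with
  | zero =>
    refine ⟨Multiplicative (ZMod 2), inferInstance, inferInstance, inferInstance, ?_⟩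
    rw [derivedSeries_zero]
    exact top_ne_bot
  | succ d ih =>
    obtain ⟨T, gT, fT, sT, hT⟩ := ih
    refine ⟨Wr T 3, inferInstance, Finite.of_equiv _ SemidirectProduct.equivProd.symm,
      isSolvable_wr3, ?_⟩
    -- elements of the derived subgroup
    obtain ⟨σ, hσ⟩ : ∃ σ : alternatingGroup (Fin 3), σ.1 0 = 1 := by decide
    obtain ⟨τ, hτ⟩ : ∃ τ : alternatingGroup (Fin 3), τ.1 0 = 2 := by decide
    have hx : ∀ (t : T) (ρ : alternatingGroup (Fin 3)),
        (inl (xx 0 (ρ.1 0) t) : Wr T 3) ∈ derivedSeries (Wr T 3) 1 := by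
      intro t ρ
      rw [derivedSeries_one]
      have h1 : ⁅(inl (Pi.mulSingle 0 t) : Wr T 3), (inr ρ : Wr T 3)⁆ ∈ commutator (Wr T 3) :=
        Subgroup.commutator_mem_commutator (Subgroup.mem_top _) (Subgroup.mem_top _)
      rw [comm_inl_inr, pact_single] at h1
      have e : Pi.mulSingle 0 t * (Pi.mulSingle (ρ.1 0) t)⁻¹ = xx 0 (ρ.1 0) t := by
        rw [xx, Pi.mulSingle_inv]
      rwa [e] at h1
    have h01 : ∀ t : T, (inl (xx 0 1 t) : Wr T 3) ∈ derivedSeries (Wr T 3) 1 := by
      intro t
      have := hx t σ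
      rwa [hσ] at this
    have h02 : ∀ t : T, (inl (xx 0 2 t) : Wr T 3) ∈ derivedSeries (Wr T 3) 1 := by
      intro t
      have := hx t τ
      rwa [hτ] at this
    let f : T →* Wr T 3 := (inl : (Fin 3 → T) →* Wr T 3).comp (MonoidHom.mulSingle (fun _ : Fin 3 => T) 0)
    have hfinj : Function.Injective f :=
      by
      intro a b hab
      have h1 : (Pi.mulSingle (0 : Fin 3) a : Fin 3 → T) = Pi.mulSingle 0 b := inl_injective hab
      simpa using congrFun h1 0
    cases d with
    | zero =>
      rw [derivedSeries_zero] at hT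
      obtain ⟨t, -, ht⟩ := (Subgroup.bot_or_exists_ne_one (⊤ : Subgroup T)).resolve_left hT.symm.symm
      intro hb
      have h1 := h01 t
      rw [hb, Subgroup.mem_bot] at h1
      have h2 : xx (0 : Fin 3) 1 t = 1 := inl_injective (by simpa using h1)
      apply ht
      have h3 := congrFun h2 0
      simpa [xx_apply] using h3
    | succ d =>
      obtain ⟨c, hc, hc1⟩ := (Subgroup.bot_or_exists_ne_one _).resolve_left hT
      have key := lift_derived f (fun k => derivedSeries (Wr T 3) (k + 2))
        (fun k => by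
          intro x hx
          rw [derivedSeries_succ (G := Wr T 3) (k + 2)] at *
          exact hx) (fun t s => ?_) d c hc
      · intro hb
        rw [hb, Subgroup.mem_bot] at key
        exact hc1 (hfinj (by rw [key, map_one]))
      · change (inl (Pi.mulSingle 0 ⁅t, s⁆) : Wr T 3) ∈ derivedSeries (Wr T 3) 2
        rw [← comm_xx (i := (0 : Fin 3)) (j := 1) (l := 2) (by decide) (by decide) (by decide),
          map_commutatorElement, derivedSeries_succ]
        exact Subgroup.commutator_mem_commutator (h01 t) (h02 s)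

end Cfsg.Agent.Lib.Perfect.Wreath
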